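import Mathlib

namespace Cfsg.Agent.Helper7.S4135x

theorem lemB {G : Type*} [Group G] [Finite G] (m : ℕ) (r : ℕ) [Fact r.Prime] (R : Sylow r G) (x₀ y : G) (hx₀R : x₀ ∈ (R : Subgroup G)) (hx₀Z : x₀ ∉ Subgroup.center G) (hx₀ : (Subgroup.centralizer ({x₀} : Set G)).index = m) (hy : (Subgroup.centralizer ({y} : Set G)).index = m) : ∃ w, w ∈ Subgroup.centralizer ({y} : Set G) ∧ w ∉ Subgroup.center G ∧ ∃ k : ℕ, w ^ r ^ k = 1 := by
  classical
  have hr : r.Prime := Fact.out
  by_contra hcon
  have hcen : ∀ w ∈ Subgroup.centralizer ({y} : Set G), (∃ k : ℕ, w ^ r ^ k = 1) →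
      w ∈ Subgroup.center G := by
    intro w hw hk
    by_contra hwz
    exact hcon ⟨w, hw, hwz, hk⟩
  have hm : m ≠ 0 := by
    rw [← hy]; exact Subgroup.index_ne_zero_of_finite
  have hcard : Nat.card (Subgroup.centralizer ({y} : Set G)) =
      Nat.card (Subgroup.centralizer ({x₀} : Set G)) := by
    have h1 := (Subgroup.centralizer ({y} : Set G)).card_mul_index
    have h2 := (Subgroup.centralizer ({x₀} : Set G)).card_mul_index
    rw [hy] at h1
    rw [hx₀] at h2
    exact Nat.eq_of_mul_eq_mul_right (Nat.pos_of_ne_zero hm) (h1.trans h2.symm)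
  obtain ⟨P⟩ : Nonempty (Sylow r (Subgroup.centralizer ({y} : Set G))) := inferInstance
  have hP'card : Nat.card ((P : Subgroup (Subgroup.centralizer ({y} : Set G))).map
      (Subgroup.centralizer ({y} : Set G)).subtype) =
      r ^ (Nat.card (Subgroup.centralizer ({y} : Set G))).factorization r := by
    rw [Subgroup.card_map_of_injective (Subgroup.centralizer ({y} : Set G)).subtype_injective]
    exact P.card_eq_multiplicity
  have hPel : ∀ w ∈ (P : Subgroup (Subgroup.centralizer ({y} : Set G))).map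
      (Subgroup.centralizer ({y} : Set G)).subtype, ∃ k : ℕ, w ^ r ^ k = 1 := by
    intro w hw
    obtain ⟨c, hc, rfl⟩ := Subgroup.mem_map.1 hw
    obtain ⟨k, hk⟩ := P.2 ⟨c, hc⟩
    refine ⟨k, ?_⟩
    have h2 : (c : G) ^ r ^ k = ((c ^ r ^ k : Subgroup.centralizer ({y} : Set G)) : G) := by
      simp
    have h3 : c ^ r ^ k = 1 := by
      have := congrArg Subtype.val hk
      simpa using this
    show ((c : G)) ^ r ^ k = 1
    rw [h2, h3]
    rfl
  have hP'cen : (P : Subgroup (Subgroup.centralizer ({y} : Set G))).map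
      (Subgroup.centralizer ({y} : Set G)).subtype ≤ Subgroup.center G := by
    intro w hw
    have hwC : w ∈ Subgroup.centralizer ({y} : Set G) := by
      obtain ⟨c, hc, rfl⟩ := Subgroup.mem_map.1 hw
      exact c.2
    exact hcen w hwC (hPel w hw)
  have hP'p : IsPGroup r ((P : Subgroup (Subgroup.centralizer ({y} : Set G))).map
      (Subgroup.centralizer ({y} : Set G)).subtype) := by
    rintro ⟨w, hw⟩
    obtain ⟨k, hk⟩ := hPel w hw
    exact ⟨k, Subtype.ext (by simpa using hk)⟩
  have hzp : IsPGroup r (Subgroup.zpowers x₀) := R.2.to_le (Subgroup.zpowers_le.2 hx₀R)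
  have hnorm : ((P : Subgroup (Subgroup.centralizer ({y} : Set G))).map
      (Subgroup.centralizer ({y} : Set G)).subtype).Normal := by
    refine ⟨fun n hn g => ?_⟩
    have := Subgroup.mem_center_iff.1 (hP'cen hn) g
    rw [this, mul_inv_cancel_right]
    exact hn
  have hHp : IsPGroup r (((P : Subgroup (Subgroup.centralizer ({y} : Set G))).map
      (Subgroup.centralizer ({y} : Set G)).subtype) ⊔ Subgroup.zpowers x₀ : Subgroup G) :=
    IsPGroup.to_sup_of_normal_left hP'p hzp
  have hHle : (((P : Subgroup (Subgroup.centralizer ({y} : Set G))).map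
      (Subgroup.centralizer ({y} : Set G)).subtype) ⊔ Subgroup.zpowers x₀ : Subgroup G) ≤
      Subgroup.centralizer ({x₀} : Set G) := by
    refine sup_le (hP'cen.trans (Subgroup.center_le_centralizer _)) ?_
    refine Subgroup.zpowers_le.2 ?_
    refine Subgroup.mem_centralizer_iff.2 (fun h hh => ?_)
    rw [Set.mem_singleton_iff.1 hh]
  obtain ⟨k, hk⟩ := hHp.exists_card_eq
  have hdvd : r ^ k ∣ Nat.card (Subgroup.centralizer ({y} : Set G)) := by
    rw [hcard, ← hk]
    exact Subgroup.card_dvd_of_le hHle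
  have hkv : k ≤ (Nat.card (Subgroup.centralizer ({y} : Set G))).factorization r :=
    (hr.pow_dvd_iff_le_factorization Nat.card_pos.ne').1 hdvd
  have hle : Nat.card (((P : Subgroup (Subgroup.centralizer ({y} : Set G))).map
      (Subgroup.centralizer ({y} : Set G)).subtype) ⊔ Subgroup.zpowers x₀ : Subgroup G) ≤
      Nat.card ((P : Subgroup (Subgroup.centralizer ({y} : Set G))).map
      (Subgroup.centralizer ({y} : Set G)).subtype) := by
    rw [hk, hP'card]
    exact Nat.pow_le_pow_right hr.pos hkv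
  have heq := Subgroup.eq_of_le_of_card_ge (le_sup_left :
    ((P : Subgroup (Subgroup.centralizer ({y} : Set G))).map
      (Subgroup.centralizer ({y} : Set G)).subtype) ≤ _ ⊔ Subgroup.zpowers x₀) hle
  have hx₀in : x₀ ∈ ((P : Subgroup (Subgroup.centralizer ({y} : Set G))).map
      (Subgroup.centralizer ({y} : Set G)).subtype) := by
    rw [heq]
    exact (le_sup_right : Subgroup.zpowers x₀ ≤ _) (Subgroup.mem_zpowers x₀)
  exact hx₀Z (hP'cen hx₀in)

end Cfsg.Agent.Helper7.S4135x
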